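import Mathlib
import Cfsg.Agent.H266.M13.Syl

/-!
# The mixed moment test: counting in an extraspecial group of order `p ^ 3` (helper994, S4933)
-/

set_option autoImplicit false
set_option linter.unusedSectionVars false

namespace Cfsg.Agent.H994.HT

open Subgroup
open Cfsg.Agent.H266.M13 (center_eq comm_mem)

section p3

variable {p : ℕ} [hp : Fact p.Prime] {P : Type*} [Group P] [Finite P] {x : P}

/-- commutation with `u` -/
def dl (hc : Nat.card P = p ^ 3) (hx : orderOf x = p) (hxc : x ∈ center P) (u : P) : P →* P where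
  toFun w := w * u * w⁻¹ * u⁻¹
  map_one' := by group
  map_mul' w v := by
    have h1 : v * u * v⁻¹ * u⁻¹ ∈ center P := (zpowers_le.2 hxc) (comm_mem hc hx hxc v u)
    have h2 := mem_center_iff.1 h1
    calc w * v * u * (w * v)⁻¹ * u⁻¹ = w * (v * u * v⁻¹ * u⁻¹) * (u * w⁻¹ * u⁻¹) := by group
      _ = w * ((v * u * v⁻¹ * u⁻¹) * (u * w⁻¹ * u⁻¹)) := by group
      _ = w * ((u * w⁻¹ * u⁻¹) * (v * u * v⁻¹ * u⁻¹)) := by rw [h2]
      _ = _ := by group

variable (hc : Nat.card P = p ^ 3) (hx : orderOf x = p) (hxc : x ∈ center P) (hna : ¬ ∀ r s : P, r * s = s * r)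
  (hex : ∀ r : P, r ^ p = 1)

theorem dl_apply (u w : P) : dl hc hx hxc u w = w * u * w⁻¹ * u⁻¹ := rfl

theorem dl_eq_one {u w : P} : dl hc hx hxc u w = 1 ↔ u * w = w * u := by
  rw [dl_apply, mul_inv_eq_one, mul_inv_eq_iff_eq_mul]
  exact eq_comm

theorem dl_mem (u w : P) : dl hc hx hxc u w ∈ zpowers x := comm_mem hc hx hxc w u

include hc hx hxc hna in
theorem card_ker {u : P} (hu : u ∉ zpowers x) : Nat.card (dl hc hx hxc u).ker = p ^ 2 := by
  have h1 : (dl hc hx hxc u).range ≤ zpowers x := by
    rintro _ ⟨w, rfl⟩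
    exact dl_mem hc hx hxc u w
  have h2 : (dl hc hx hxc u).range ≠ ⊥ := by
    intro h
    rw [← center_eq hc hx hxc hna, mem_center_iff] at hu
    push Not at hu
    obtain ⟨g, hg⟩ := hu
    apply hg
    have h3 : dl hc hx hxc u g ∈ (dl hc hx hxc u).range := ⟨g, rfl⟩
    rw [h, mem_bot] at h3
    exact ((dl_eq_one hc hx hxc).1 h3).symm
  have h3 : Nat.card (dl hc hx hxc u).range = p := by
    have h4 := card_dvd_of_le h1
    rw [Nat.card_zpowers, hx] at h4
    rcases (Nat.dvd_prime hp.out).1 h4 with h5 | h5
    · exact absurd (eq_bot_of_card_eq _ h5) h2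
    · exact h5
  have h4 : Nat.card P = Nat.card (dl hc hx hxc u).range * Nat.card (dl hc hx hxc u).ker := by
    rw [card_eq_card_quotient_mul_card_subgroup (dl hc hx hxc u).ker,
      Nat.card_congr (QuotientGroup.quotientKerEquivRange (dl hc hx hxc u)).toEquiv]
  rw [hc, h3, pow_succ', pow_succ'] at h4
  have h5 := Nat.eq_of_mul_eq_mul_left hp.out.pos h4
  rw [← h5]
  ring

include hc hx hxc in
/-- the elements outside the centre commuting with `u` -/
theorem card_comm [Fintype P] [DecidableEq P] [DecidablePred (· ∈ zpowers x)] (hna : ¬ ∀ r s : P, r * s = s * r)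
    {u : P} (hu : u ∉ zpowers x) :
    (Finset.univ.filter fun w : P => w ∉ zpowers x ∧ u * w = w * u).card = p ^ 2 - p := by
  classical
  have h1 : (Finset.univ.filter fun w : P => u * w = w * u).card = p ^ 2 := by
    rw [← card_ker hc hx hxc hna hu, Nat.card_eq_fintype_card, ← Fintype.card_subtype]
    refine Fintype.card_congr (Equiv.subtypeEquivRight fun w => ?_)
    rw [MonoidHom.mem_ker, dl_eq_one]
  have h2 : (Finset.univ.filter fun w : P => w ∈ zpowers x).card = p := by
    rw [← Fintype.card_subtype, ← Nat.card_eq_fintype_card]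
    exact (Nat.card_zpowers x).trans hx
  have h3 : (Finset.univ.filter fun w : P => w ∉ zpowers x ∧ u * w = w * u) =
      (Finset.univ.filter fun w : P => u * w = w * u) \ (Finset.univ.filter fun w : P => w ∈ zpowers x) := by
    ext w
    simp only [Finset.mem_filter, Finset.mem_univ, true_and, Finset.mem_sdiff]
    tauto
  rw [h3, Finset.card_sdiff_of_subset, h1, h2]
  intro w hw
  rw [Finset.mem_filter] at hw ⊢
  exact ⟨Finset.mem_univ _, mem_center_iff.1 ((zpowers_le.2 hxc) hw.2) u⟩

include hc hx hxc hna hex in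
/-- **The count.** -/
theorem card_pairs {E : P → Prop} (hE : ∀ u, E u → u ∉ zpowers x)
    (hcl : ∀ u w, E u → w ∉ zpowers x → u * w = w * u → E w) {k : ℕ} (hk : Nat.card {u // E u} = k * (p ^ 2 - p))
    {a : P} (ha : a ∉ zpowers x) (haE : ¬ E a) : Nat.card {u : P // E u ∧ E (u⁻¹ * a)} = p * (k * (k - 1)) := by
  classical
  have hfin := Fintype.ofFinite P
  have hp2 : 0 < p ^ 2 - p := by
    have := hp.out.two_le
    have h1 : p < p ^ 2 := by nlinarith
    omega
  have hpw : p ^ 2 - p = p * (p - 1) := by
    rw [Nat.mul_sub, mul_one, pow_two]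
  have hp1 : 0 < p - 1 := Nat.sub_pos_of_lt hp.out.one_lt
  set s : Finset P := Finset.univ.filter E with hs
  have hsc : s.card = k * (p ^ 2 - p) := by
    rw [hs, ← Fintype.card_subtype, ← Nat.card_eq_fintype_card, hk]
  set δ := fun u => dl hc hx hxc u with hδ
  have hordw : ∀ w : P, w ∉ zpowers x → orderOf w = p := fun w hw =>
    orderOf_eq_prime (hex w) fun h => hw (by rw [h]; exact one_mem _)
  -- the elements of `E` with given commutator with `u`
  have key : ∀ u, E u → (Finset.univ.filter fun w : P => E w ∧ δ u w = δ u a).card = (k - 1) * p := by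
    intro u hu
    have hau : δ u a ≠ 1 := by
      intro h
      exact haE (hcl u a hu ha ((dl_eq_one hc hx hxc).1 h))
    -- the elements of `E` not commuting with `u`
    have h1 : (Finset.univ.filter fun w : P => E w ∧ δ u w ≠ 1).card = (k - 1) * (p ^ 2 - p) := by
      have h2 : (Finset.univ.filter fun w : P => E w ∧ δ u w ≠ 1) =
          s \ (Finset.univ.filter fun w : P => w ∉ zpowers x ∧ u * w = w * u) := by
        ext w
        simp only [hs, Finset.mem_filter, Finset.mem_univ, true_and, Finset.mem_sdiff, hδ, ne_eq, dl_eq_one]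
        constructor
        · rintro ⟨h3, h4⟩
          exact ⟨h3, fun h5 => h4 h5.2⟩
        · rintro ⟨h3, h4⟩
          exact ⟨h3, fun h5 => h4 ⟨hE w h3, h5⟩⟩
      rw [h2, Finset.card_sdiff_of_subset, hsc, card_comm hc hx hxc hna (hE u hu)]
      · rw [Nat.sub_mul, one_mul]
      · intro w hw
        rw [Finset.mem_filter] at hw
        exact Finset.mem_filter.2 ⟨Finset.mem_univ _, hcl u w hu hw.2.1 hw.2.2⟩
    have hpowE : ∀ w : P, E w → ∀ m : ℕ, w ^ m ∉ zpowers x → E (w ^ m) := fun w hw m hm =>
      hcl w _ hw hm (Commute.pow_right (Commute.refl w) m).eq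
    have h3 := Finset.card_mul_eq_card_mul (s := Finset.univ.filter fun w : P => E w ∧ δ u w ≠ 1)
      (t := Finset.univ.filter fun w : P => E w ∧ δ u w = δ u a) (fun w w' => w ∈ zpowers w') (m := 1) (n := p - 1)
      (fun w hw => by
        obtain ⟨-, hwE, hw1⟩ := Finset.mem_filter.1 hw
        -- a power of `w` has the right commutator
        have hod : orderOf (δ u w) = p := by
          have h5 : δ u w ^ p = 1 := hex _
          exact orderOf_eq_prime h5 hw1
        have hz : zpowers (δ u w) = zpowers x := by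
          refine eq_of_le_of_card_ge (zpowers_le.2 (dl_mem hc hx hxc u w)) ?_
          rw [Nat.card_zpowers, Nat.card_zpowers, hod, hx]
        have h5 : δ u a ∈ zpowers (δ u w) := by rw [hz]; exact dl_mem hc hx hxc u a
        obtain ⟨m, hm⟩ := mem_powers_iff_mem_zpowers.2 h5
        change δ u w ^ m = δ u a at hm
        rw [Finset.card_eq_one]
        refine ⟨w ^ m, ?_⟩
        have hm0 : w ^ m ∉ zpowers x := by
          intro h6
          apply hau
          rw [← hm, ← map_pow]
          exact (dl_eq_one hc hx hxc).2 (mem_center_iff.1 ((zpowers_le.2 hxc) h6) u)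
        have hmw : w ∈ zpowers (w ^ m) := by
          have h6 : zpowers (w ^ m) = zpowers w := by
            refine eq_of_le_of_card_ge (zpowers_le.2 (pow_mem (mem_zpowers w) m)) ?_
            rw [Nat.card_zpowers, Nat.card_zpowers, hordw _ hm0, hordw _ (hE w hwE)]
          rw [h6]
          exact mem_zpowers w
        ext w'
        rw [Finset.mem_bipartiteAbove, Finset.mem_filter, Finset.mem_singleton]
        constructor
        · rintro ⟨⟨-, hE', hd'⟩, hmem⟩
          -- `w'` is a power of `w`
          have h6 : zpowers w = zpowers w' := by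
            refine eq_of_le_of_card_ge (zpowers_le.2 hmem) ?_
            rw [Nat.card_zpowers, Nat.card_zpowers, hordw _ (hE w hwE), hordw _ (hE w' hE')]
          have h7 : w' ∈ zpowers w := by rw [h6]; exact mem_zpowers w'
          obtain ⟨n, hn⟩ := mem_powers_iff_mem_zpowers.2 h7
          change w ^ n = w' at hn
          rw [← hn]
          rw [← hn, map_pow, ← hm] at hd'
          rw [pow_eq_pow_iff_modEq] at hd' ⊢
          rw [hod] at hd'
          rw [hordw _ (hE w hwE)]
          exact hd'
        · rintro rfl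
          exact ⟨⟨Finset.mem_univ _, hpowE w hwE m hm0, by rw [map_pow, hm]⟩, hmw⟩)
      (fun w' hw' => by
        obtain ⟨-, hwE, hwd⟩ := Finset.mem_filter.1 hw'
        have h5 : ((Finset.univ.filter fun w : P => E w ∧ δ u w ≠ 1).bipartiteBelow (fun w w' => w ∈ zpowers w') w') =
            (Finset.univ.filter fun w : P => w ∈ zpowers w').erase 1 := by
          ext w
          rw [Finset.mem_bipartiteBelow, Finset.mem_filter, Finset.mem_erase, Finset.mem_filter]
          constructor
          · rintro ⟨⟨-, h6, h7⟩, h8⟩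
            exact ⟨fun h9 => h7 (by rw [h9, map_one]), Finset.mem_univ _, h8⟩
          · rintro ⟨h6, -, h7⟩
            have h8 : δ u w ≠ 1 := by
              intro h9
              -- `w'` is a power of `w`
              have h10 : zpowers w = zpowers w' := by
                refine eq_of_le_of_card_ge (zpowers_le.2 h7) ?_
                rw [Nat.card_zpowers, Nat.card_zpowers, orderOf_eq_prime (hex w) h6, hordw _ (hE w' hwE)]
              have h11 : w' ∈ zpowers w := by rw [h10]; exact mem_zpowers w'
              obtain ⟨n, hn⟩ := mem_powers_iff_mem_zpowers.2 h11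
              change w ^ n = w' at hn
              rw [← hn, map_pow, h9, one_pow] at hwd
              exact hau hwd.symm
            have h9 : w ∉ zpowers x := fun h10 =>
              h8 ((dl_eq_one hc hx hxc).2 (mem_center_iff.1 ((zpowers_le.2 hxc) h10) u))
            obtain ⟨n, hn⟩ := mem_powers_iff_mem_zpowers.2 h7
            change w' ^ n = w at hn
            exact ⟨⟨Finset.mem_univ _, by rw [← hn]; exact hpowE w' hwE n (by rw [hn]; exact h9), h8⟩, h7⟩
        rw [h5, Finset.card_erase_of_mem (Finset.mem_filter.2 ⟨Finset.mem_univ _, one_mem _⟩),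
          ← Fintype.card_subtype, ← Nat.card_eq_fintype_card]
        congr 1
        exact (Nat.card_zpowers w').trans (hordw _ (hE w' hwE)))
    rw [h1, mul_one, hpw, ← mul_assoc] at h3
    exact (Nat.eq_of_mul_eq_mul_right hp1 h3).symm
  -- the final double counting
  set t : Finset P := Finset.univ.filter fun u : P => E u ∧ E (u⁻¹ * a) with ht
  have h4 := Finset.card_mul_eq_card_mul (s := s) (t := t) (fun u v => u * v = v * u) (m := (k - 1) * p) (n := p ^ 2 - p)
    (fun u hu => by
      have huE : E u := (Finset.mem_filter.1 hu).2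
      rw [← key u huE]
      refine Finset.card_bij (fun v _ => v⁻¹ * a) ?_ ?_ ?_
      · intro v hv
        rw [Finset.mem_bipartiteAbove, Finset.mem_filter] at hv
        obtain ⟨⟨-, h5, h6⟩, h7⟩ := hv
        refine Finset.mem_filter.2 ⟨Finset.mem_univ _, h6, ?_⟩
        rw [map_mul, map_inv, (dl_eq_one hc hx hxc).2 h7, inv_one, one_mul]
      · intro v _ w _ h
        exact inv_injective (mul_right_cancel h)
      · intro w hw
        obtain ⟨-, h5, h6⟩ := Finset.mem_filter.1 hw
        refine ⟨a * w⁻¹, ?_, by group⟩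
        have h7 : δ u (a * w⁻¹) = 1 := by rw [map_mul, map_inv, h6, mul_inv_cancel]
        have h8 : u * (a * w⁻¹) = a * w⁻¹ * u := (dl_eq_one hc hx hxc).1 h7
        have h9 : a * w⁻¹ ∉ zpowers x := by
          intro h10
          have h11 := mem_center_iff.1 ((zpowers_le.2 hxc) h10) w
          apply haE
          refine hcl w a h5 ha ?_
          calc w * a = w * (a * w⁻¹) * w := by group
            _ = a * w⁻¹ * w * w := by rw [h11]
            _ = a * w := by group
        rw [Finset.mem_bipartiteAbove, Finset.mem_filter]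
        refine ⟨⟨Finset.mem_univ _, hcl u _ huE h9 h8, ?_⟩, h8⟩
        rwa [show (a * w⁻¹)⁻¹ * a = w by group])
    (fun v hv => by
      have hvE : E v := (Finset.mem_filter.1 hv).2.1
      rw [← card_comm hc hx hxc hna (hE v hvE)]
      congr 1
      ext w
      rw [Finset.mem_bipartiteBelow, Finset.mem_filter, Finset.mem_filter]
      constructor
      · rintro ⟨⟨-, h5⟩, h6⟩
        exact ⟨Finset.mem_univ _, hE w h5, h6.symm⟩
      · rintro ⟨-, h5, h6⟩
        exact ⟨⟨Finset.mem_univ _, hcl v w hvE h5 h6⟩, h6.symm⟩)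
  rw [hsc] at h4
  have h5 : t.card = p * (k * (k - 1)) := by
    apply Nat.eq_of_mul_eq_mul_right hp2
    rw [← h4]
    ring
  rw [Nat.card_eq_fintype_card, Fintype.card_subtype]
  exact h5

end p3

end Cfsg.Agent.H994.HT
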