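import Cfsg.Agent.H994.HT.MixA
import Cfsg.Agent.H994.HT.MixP
import Cfsg.Agent.SmallSimple.S1000.OneBlock
import Cfsg.Agent.Characters.GaloisBasic
import Cfsg.Agent.Characters.ClassMul
import Cfsg.Agent.Blocks.UniqueBlock
import Cfsg.Agent.Blocks.Orthogonality
import Cfsg.Agent.H686.CharKit

/-!
# The mixed moment test (helper994, S4933)

`P` of order `p ^ 3` and exponent `p`, `x` central in `P`, `a` the other class of elements of order `p`.  If all the
characters of the principal block have degree prime to `p` then `h ^ 2 N ≡ g (g + h)` modulo `p ^ 2`, where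
`|G| = p ^ 3 g`, `|C(x)| = p ^ 3 h` and `N = p k (k - 1)`, `k` the number of the `p + 1` subgroups of order `p ^ 2` of `P`
all whose elements are conjugate to `x`.
-/

set_option autoImplicit false
set_option linter.unusedSectionVars false

namespace Cfsg.Agent.H994.HT

open Cfsg Subgroup
open Cfsg.Agent.Characters Cfsg.Agent.Characters.Core Cfsg.Agent.Blocks Cfsg.Agent.Blocks.Basic Cfsg.Agent.Blocks.Local
open Cfsg.Agent.H266.M13 (Hyp nA Cen center_eq comm_mem exists_conj_pow mem_of_cent exists_sum sum_three)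
open scoped ComplexConjugate

universe u

/-- the input -/
structure In (p h g k : ℕ) {G : Type u} [Group G] [Finite G] (a x : G) (R L : Subgroup G) : Prop
    extends Hyp p a x R where
  ex : ∀ r ∈ R, r ^ p = 1
  cR : ∀ c : G, (∀ r ∈ R, c * r = r * c) → c ∈ R
  cl : ∀ y ∈ R, orderOf y = p → IsConj a y ∨ IsConj x y
  cx : Nat.card (centralizer ({x} : Set G)) = p ^ 3 * h
  cG : Nat.card G = p ^ 3 * g
  Lc : ∀ u : G, IsConj x u → u * a = a * u → u ∈ L
  La : a ∉ L
  ca : nA a R = (p + 1 - k) * (p ^ 2 - p)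

variable {p h g k : ℕ} [hp : Fact p.Prime] {G : Type u} [Group G] [Finite G] {a x : G} {R L : Subgroup G}

theorem isConj_pow {u v : G} (h : IsConj u v) (n : ℕ) : IsConj (u ^ n) (v ^ n) := by
  obtain ⟨c, rfl⟩ := isConj_iff.1 h
  exact isConj_iff.2 ⟨c, by rw [conj_pow]⟩

theorem isConj_order {u v : G} (h : IsConj u v) : orderOf v = orderOf u := by
  obtain ⟨c, rfl⟩ := isConj_iff.1 h
  exact (MulAut.conj c).orderOf_eq u

/-- the input for the conjugates of `a` -/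
theorem In.conj_a' (H : In p h g k a x R L) (c : G) : In p h g k (c * a * c⁻¹) x R (L.map (MulAut.conj c).toMonoidHom) := by
  have hca : IsConj a (c * a * c⁻¹) := isConj_iff.2 ⟨c, rfl⟩
  refine ⟨⟨?_, H.hx, ?_, H.hR, H.hRC, H.hRx, H.hna, H.h4, ?_, H.hrx, fun h1 => H.hax (hca.trans h1)⟩, H.ex, H.cR, ?_, H.cx,
    H.cG, ?_, ?_, ?_⟩
  · rw [isConj_order hca, H.ha]
  · obtain ⟨m, hm, h1⟩ := H.hca
    refine ⟨m, hm, ?_⟩
    rw [← h1]
    refine Nat.card_congr ((MulAut.conj c).toEquiv.symm.subtypeEquiv fun u => ?_)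
    rw [mem_centralizer_singleton_iff, mem_centralizer_singleton_iff]
    show u * (c * a * c⁻¹) = c * a * c⁻¹ * u ↔ c⁻¹ * u * c * a = a * (c⁻¹ * u * c)
    constructor
    · intro h
      calc c⁻¹ * u * c * a = c⁻¹ * (u * (c * a * c⁻¹)) * c := by group
        _ = c⁻¹ * (c * a * c⁻¹ * u) * c := by rw [h]
        _ = a * (c⁻¹ * u * c) := by group
    · intro h
      calc u * (c * a * c⁻¹) = c * (c⁻¹ * u * c * a) * c⁻¹ := by group
        _ = c * (a * (c⁻¹ * u * c)) * c⁻¹ := by rw [h]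
        _ = c * a * c⁻¹ * u := by group
  · intro n hn
    exact (hca.symm.trans (H.hra n hn)).trans (isConj_pow hca n)
  · intro y hy ho
    rcases H.cl y hy ho with h1 | h1
    · exact Or.inl (hca.symm.trans h1)
    · exact Or.inr h1
  · intro u hu hua
    refine ⟨c⁻¹ * u * c, H.Lc _ (hu.trans (isConj_iff.2 ⟨c⁻¹, by group⟩)) ?_, ?_⟩
    · calc c⁻¹ * u * c * a = c⁻¹ * (u * (c * a * c⁻¹)) * c := by group
        _ = c⁻¹ * (c * a * c⁻¹ * u) * c := by rw [hua]
        _ = a * (c⁻¹ * u * c) := by group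
    · show c * (c⁻¹ * u * c) * c⁻¹ = u
      group
  · rintro ⟨w, hw, hwa⟩
    have h2 : c * w * c⁻¹ = c * a * c⁻¹ := hwa
    have h3 := mul_left_cancel (mul_right_cancel h2)
    rw [h3] at hw
    exact H.La hw
  · rw [← H.ca]
    unfold nA
    refine Nat.card_congr (Equiv.subtypeEquivRight fun u => ⟨fun h1 => ⟨hca.trans h1.1, h1.2⟩, fun h1 => ⟨hca.symm.trans h1.1, h1.2⟩⟩)

section main

variable (H : In p h g k a x R L)
include H

theorem In.mem_x : x ∈ R := H.toHyp.mem H.toHyp.cen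

theorem In.xc : (⟨x, H.mem_x⟩ : R) ∈ center R := mem_center_iff.2 fun r =>
  Subtype.ext (mem_centralizer_singleton_iff.1 (H.hRC r.2))

theorem In.ox : orderOf (⟨x, H.mem_x⟩ : R) = p := by rw [Subgroup.orderOf_mk, H.hx]

theorem In.nab : ¬ ∀ r s : R, r * s = s * r := by
  intro hc
  obtain ⟨r, hr, s, hs, hne⟩ := H.hna
  exact hne (congrArg Subtype.val (hc ⟨r, hr⟩ ⟨s, hs⟩))

theorem In.exR : ∀ r : R, r ^ p = 1 := fun r => Subtype.ext (H.ex r r.2)

theorem In.zp {u : R} : u ∈ zpowers (⟨x, H.mem_x⟩ : R) ↔ (u : G) ∈ zpowers x := by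
  constructor
  · rintro ⟨n, hn⟩
    exact ⟨n, by simpa using congrArg Subtype.val hn⟩
  · rintro ⟨n, hn⟩
    exact ⟨n, Subtype.ext (by simpa using hn)⟩

/-- the elements of `⟨x⟩` -/
theorem In.zx {u : G} (hu : u ∈ zpowers x) (h1 : u ≠ 1) : IsConj x u := by
  obtain ⟨n, rfl⟩ := mem_powers_iff_mem_zpowers.2 hu
  refine H.hrx n ?_
  intro hd
  apply h1
  show x ^ n = 1
  rw [← orderOf_dvd_iff_pow_eq_one, H.hx]
  exact hd

/-- the lines -/
theorem In.line {u w : R} (hu : (u : G) ∉ zpowers x) (hw : (w : G) ∉ zpowers x) (huw : u * w = w * u) {y : G}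
    (hy : ∀ n : ℕ, ¬ p ∣ n → IsConj y (y ^ n)) (h1 : IsConj y (u : G)) : IsConj y (w : G) := by
  have hu' : u ∉ zpowers (⟨x, H.mem_x⟩ : R) := fun h2 => hu (H.zp.1 h2)
  have hw' : w ∉ zpowers (⟨x, H.mem_x⟩ : R) := fun h2 => hw (H.zp.1 h2)
  obtain ⟨i, s, hi, hs⟩ := exists_conj_pow H.hR H.ox H.xc H.nab (V := (dl H.hR H.ox H.xc u).ker)
    (card_ker H.hR H.ox H.xc H.nab hu') (v := u) (w := w)
    (by rw [MonoidHom.mem_ker, dl_eq_one]; exact mem_center_iff.1 H.xc u)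
    (by rw [MonoidHom.mem_ker, dl_eq_one])
    (by rw [MonoidHom.mem_ker, dl_eq_one]; exact huw) hu' hw'
  have h2 : (s : G) * (u : G) ^ i * (s : G)⁻¹ = w := congrArg Subtype.val hs
  exact (hy i hi).trans ((isConj_pow h1 i).trans (isConj_iff.2 ⟨s, h2⟩))

/-- an `a`-element is not central -/
theorem In.not_z {u : G} (hu : IsConj a u) : u ∉ zpowers x := by
  intro h1
  by_cases h2 : u = 1
  · have := isConj_order hu
    rw [h2, orderOf_one, H.ha] at this
    exact hp.out.one_lt.ne this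
  · exact H.hax (hu.trans (H.zx h1 h2).symm)

/-- the `x`-elements outside of the centre -/
theorem In.card_E (hk : k ≤ p + 1) : Nat.card {u : R // IsConj x (u : G) ∧ (u : G) ∉ zpowers x} = k * (p ^ 2 - p) := by
  classical
  have := Fintype.ofFinite R
  have e1 : (Finset.univ.filter fun u : R => IsConj a (u : G)).card = (p + 1 - k) * (p ^ 2 - p) := by
    rw [← H.ca, ← Fintype.card_subtype, ← Nat.card_eq_fintype_card]
    unfold nA
    exact Nat.card_congr ⟨fun u => ⟨u.1.1, u.2, u.1.2⟩, fun u => ⟨⟨u.1, u.2.2⟩, u.2.1⟩, fun u => rfl, fun u => rfl⟩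
  have e2 : (Finset.univ.filter fun u : R => (u : G) ∈ zpowers x).card = p := by
    rw [← Fintype.card_subtype, ← Nat.card_eq_fintype_card]
    have h1 : Nat.card {u : R // (u : G) ∈ zpowers x} = Nat.card (zpowers x) :=
      Nat.card_congr ⟨fun u => ⟨u.1.1, u.2⟩, fun u => ⟨⟨u.1, (zpowers_le.2 H.mem_x) u.2⟩, u.2⟩, fun u => rfl, fun u => rfl⟩
    rw [h1, Nat.card_zpowers, H.hx]
  have e3 : (Finset.univ : Finset R).card = p ^ 3 := by
    rw [Finset.card_univ, ← Nat.card_eq_fintype_card, H.hR]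
  have e4 : (Finset.univ : Finset R) = (Finset.univ.filter fun u : R => IsConj a (u : G)) ∪
      ((Finset.univ.filter fun u : R => (u : G) ∈ zpowers x) ∪
        (Finset.univ.filter fun u : R => IsConj x (u : G) ∧ (u : G) ∉ zpowers x)) := by
    ext u
    simp only [Finset.mem_univ, Finset.mem_union, Finset.mem_filter, true_and, true_iff]
    by_cases h1 : (u : G) ∈ zpowers x
    · exact Or.inr (Or.inl h1)
    · have h2 : orderOf (u : G) = p := orderOf_eq_prime (H.ex u u.2) fun h3 => h1 (by rw [h3]; exact one_mem _)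
      rcases H.cl u u.2 h2 with h3 | h3
      · exact Or.inl h3
      · exact Or.inr (Or.inr ⟨h3, h1⟩)
  have d1 : Disjoint (Finset.univ.filter fun u : R => (u : G) ∈ zpowers x)
      (Finset.univ.filter fun u : R => IsConj x (u : G) ∧ (u : G) ∉ zpowers x) := by
    rw [Finset.disjoint_left]
    intro u h1 h2
    exact (Finset.mem_filter.1 h2).2.2 (Finset.mem_filter.1 h1).2
  have d2 : Disjoint (Finset.univ.filter fun u : R => IsConj a (u : G))
      ((Finset.univ.filter fun u : R => (u : G) ∈ zpowers x) ∪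
        (Finset.univ.filter fun u : R => IsConj x (u : G) ∧ (u : G) ∉ zpowers x)) := by
    rw [Finset.disjoint_left]
    intro u h1 h2
    have h1' := (Finset.mem_filter.1 h1).2
    rcases Finset.mem_union.1 h2 with h3 | h3
    · exact H.not_z h1' (Finset.mem_filter.1 h3).2
    · exact H.hax (h1'.trans (Finset.mem_filter.1 h3).2.1.symm)
  have e5 : (Finset.univ : Finset R).card = (p + 1 - k) * (p ^ 2 - p) + (p +
      (Finset.univ.filter fun u : R => IsConj x (u : G) ∧ (u : G) ∉ zpowers x).card) := by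
    refine (congrArg Finset.card e4).trans ?_
    rw [Finset.card_union_of_disjoint d2, Finset.card_union_of_disjoint d1, e1, e2]
  rw [Nat.card_eq_fintype_card, Fintype.card_subtype]
  rw [e3] at e5
  set c := (Finset.univ.filter fun u : R => IsConj x (u : G) ∧ (u : G) ∉ zpowers x).card with hc
  obtain ⟨j, hj⟩ := Nat.exists_eq_add_of_le hk
  have hpp : p ≤ p ^ 2 := by nlinarith [hp.out.pos]
  obtain ⟨m, hm⟩ := Nat.exists_eq_add_of_le hpp
  rw [hm, Nat.add_sub_cancel_left] at e5 ⊢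
  rw [show p + 1 - k = j by omega] at e5
  have h6 : p ^ 3 = p * (p + m) := by rw [← hm]; ring
  have h7 : p * (p + m) = j * m + (p + c) := by rw [← h6, e5]
  have h8 : p * m + m = k * m + j * m := by rw [← add_mul, ← hj]; ring
  have h9 : p * p = p + m := by rw [← hm]; ring
  have h10 : p * (p + m) = p + m + p * m := by rw [mul_add, h9]
  omega

/-- the line of `a` -/
theorem In.az (haR : a ∈ R) {z : G} (hz : z ∈ zpowers x) : IsConj a (z * a) := by
  have hzR : z ∈ R := (zpowers_le.2 H.mem_x) hz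
  have hzc : ∀ r ∈ R, r * z = z * r := by
    obtain ⟨n, rfl⟩ := mem_zpowers_iff.1 hz
    intro r hr
    exact ((show Commute r x from mem_centralizer_singleton_iff.1 (H.hRC hr)).zpow_right n).eq
  have ha0 := H.not_z (IsConj.refl a)
  refine H.line (u := ⟨a, haR⟩) (w := ⟨z * a, mul_mem hzR haR⟩) ha0 ?_ (Subtype.ext ?_) H.hra (IsConj.refl a)
  · intro h1
    apply ha0
    have h2 := mul_mem (inv_mem hz) h1
    rwa [inv_mul_cancel_left] at h2
  · show a * (z * a) = z * a * a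
    rw [← mul_assoc, hzc a haR]

/-- the pairs commuting with `x` -/
theorem In.card_T0 (haR : a ∈ R) (hk : k ≤ p + 1) :
    Nat.card {q : G × G // (IsConj x q.1 ∧ IsConj x q.2 ∧ q.1 * q.2 = a) ∧ q.1 * x = x * q.1} = p * (k * (k - 1)) := by
  have hRz : ∀ u : G, IsConj x u → u * x = x * u → u ∈ R := by
    intro u hu hux
    refine mem_of_cent H.h4 H.hR H.hRC H.hRx (Q := zpowers u) ?_ ?_ (mem_zpowers u)
    · exact IsPGroup.of_card (n := 1) (by rw [Nat.card_zpowers, isConj_order hu, H.hx, pow_one])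
    · rw [zpowers_le, mem_centralizer_singleton_iff]
      exact hux
  have hax : a * x = x * a := mem_centralizer_singleton_iff.1 (H.hRC haR)
  rw [← card_pairs H.hR H.ox H.xc H.nab H.exR (E := fun u : R => IsConj x (u : G) ∧ (u : G) ∉ zpowers x)
    (fun u hu h1 => hu.2 (H.zp.1 h1))
    (fun u w hu hw huw => ⟨H.line hu.2 (fun h1 => hw (H.zp.2 h1)) huw H.hrx hu.1, fun h1 => hw (H.zp.2 h1)⟩)
    (H.card_E hk) (a := ⟨a, haR⟩) (fun h1 => H.not_z (IsConj.refl a) (H.zp.1 h1)) (fun h1 => H.hax h1.1.symm)]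
  have hq1 : ∀ q : G × G, (IsConj x q.1 ∧ IsConj x q.2 ∧ q.1 * q.2 = a) → q.1 ∉ zpowers x := by
    rintro ⟨q1, q2⟩ ⟨h1, h2, h3⟩ h4
    have h5 : q2 = q1⁻¹ * a := by rw [← h3, inv_mul_cancel_left]
    apply H.hax
    have h6 := H.az haR (inv_mem h4)
    rw [← h5] at h6
    exact h6.trans h2.symm
  have hq2 : ∀ q : G × G, (IsConj x q.1 ∧ IsConj x q.2 ∧ q.1 * q.2 = a) → q.2 ∉ zpowers x := by
    rintro ⟨q1, q2⟩ ⟨h1, h2, h3⟩ h4
    change q2 ∈ zpowers x at h4
    change q1 * q2 = a at h3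
    have hqR : q2 ∈ R := (zpowers_le.2 H.mem_x) h4
    have h7 : a * q2 = q2 * a := by
      obtain ⟨n, rfl⟩ := mem_zpowers_iff.1 h4
      exact ((show Commute a x from hax).zpow_right n).eq
    have h5 : q1 = q2⁻¹ * a := by
      have h8 : q2⁻¹ * a = a * q2⁻¹ := by
        rw [inv_mul_eq_iff_eq_mul, ← mul_assoc, ← h7, mul_inv_cancel_right]
      rw [h8, ← h3, mul_inv_cancel_right]
    apply H.hax
    have h6 := H.az haR (inv_mem h4)
    rw [← h5] at h6
    exact h6.trans h1.symm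
  refine Nat.card_congr ⟨fun q => ⟨⟨q.1.1, hRz _ q.2.1.1 q.2.2⟩, ⟨q.2.1.1, hq1 _ q.2.1⟩, ?_⟩,
    fun u => ⟨((u.1 : G), (u.1 : G)⁻¹ * a), ⟨u.2.1.1, u.2.2.1, mul_inv_cancel_left _ _⟩,
      mem_centralizer_singleton_iff.1 (H.hRC u.1.2)⟩, ?_, ?_⟩
  · have h5 : (q.1.1)⁻¹ * a = q.1.2 := (eq_inv_mul_iff_mul_eq.2 q.2.1.2.2).symm
    show IsConj x ((q.1.1)⁻¹ * a) ∧ (q.1.1)⁻¹ * a ∉ zpowers x
    rw [h5]
    exact ⟨q.2.1.2.1, hq2 _ q.2.1⟩
  · rintro ⟨⟨q1, q2⟩, ⟨h1, h2, h3⟩, h4⟩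
    refine Subtype.ext (Prod.ext rfl ?_)
    show q1⁻¹ * a = q2
    rw [← h3, inv_mul_cancel_left]
  · intro u
    rfl

/-- the noncentral elements fix no pair -/
theorem In.free (haR : a ∈ R) {v : R} (hva : (⟨a, haR⟩ : R) * v = v * ⟨a, haR⟩) (hvz : (v : G) ∉ zpowers x) {q1 q2 : G}
    (h1 : IsConj x q1) (h2 : IsConj x q2) (h12 : q1 * q2 = a) (hc : (v : G) * q1 = q1 * v) : False := by
  have ha0 : (⟨a, haR⟩ : R) ∉ zpowers (⟨x, H.mem_x⟩ : R) := fun h3 => H.not_z (IsConj.refl a) (H.zp.1 h3)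
  have hv0 : v ∉ zpowers (⟨x, H.mem_x⟩ : R) := fun h3 => hvz (H.zp.1 h3)
  obtain ⟨i, s, hi, hs⟩ := exists_conj_pow H.hR H.ox H.xc H.nab (V := (dl H.hR H.ox H.xc (⟨a, haR⟩ : R)).ker)
    (card_ker H.hR H.ox H.xc H.nab ha0) (v := (⟨a, haR⟩ : R)) (w := v)
    (by rw [MonoidHom.mem_ker, dl_eq_one]; exact mem_center_iff.1 H.xc _)
    (by rw [MonoidHom.mem_ker, dl_eq_one])
    (by rw [MonoidHom.mem_ker, dl_eq_one]; exact hva) ha0 hv0
  have hs' : (s : G) * a ^ i * (s : G)⁻¹ = v := congrArg Subtype.val hs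
  -- `a` is a power of `a ^ i`
  have hai : a ∈ zpowers (a ^ i) := by
    have h3 : zpowers (a ^ i) = zpowers a := by
      refine eq_of_le_of_card_ge (zpowers_le.2 (pow_mem (mem_zpowers a) i)) ?_
      rw [Nat.card_zpowers, Nat.card_zpowers, ← isConj_order (H.hra i hi)]
    rw [h3]
    exact mem_zpowers a
  have hcen : ∀ w : G, (v : G) * w = w * v → (s : G)⁻¹ * w * s * a = a * ((s : G)⁻¹ * w * s) := by
    intro w hw
    obtain ⟨n, hn⟩ := mem_zpowers_iff.1 hai
    have h3 : Commute ((s : G)⁻¹ * w * s) (a ^ i) := by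
      show (s : G)⁻¹ * w * s * a ^ i = a ^ i * ((s : G)⁻¹ * w * s)
      calc (s : G)⁻¹ * w * s * a ^ i = (s : G)⁻¹ * (w * ((s : G) * a ^ i * (s : G)⁻¹)) * s := by group
        _ = (s : G)⁻¹ * ((s : G) * a ^ i * (s : G)⁻¹ * w) * s := by rw [hs', hw]
        _ = a ^ i * ((s : G)⁻¹ * w * s) := by group
    have h4 := h3.zpow_right n
    rw [hn] at h4
    exact h4.eq
  have hva' : a * (v : G) = v * a := congrArg Subtype.val hva
  have hq2 : (v : G) * q2 = q2 * v := by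
    have h3 : q2 = q1⁻¹ * a := by rw [← h12, inv_mul_cancel_left]
    have h4 : (v : G) * q1⁻¹ = q1⁻¹ * v := by
      rw [mul_inv_eq_iff_eq_mul, mul_assoc, hc]
      group
    rw [h3, ← mul_assoc, h4, mul_assoc, ← hva']
    group
  have m1 := H.Lc _ (h1.trans (isConj_iff.2 ⟨(s : G)⁻¹, rfl⟩)) (by
    have := hcen q1 hc
    rwa [inv_inv])
  have m2 := H.Lc _ (h2.trans (isConj_iff.2 ⟨(s : G)⁻¹, rfl⟩)) (by
    have := hcen q2 hq2
    rwa [inv_inv])
  rw [inv_inv] at m1 m2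
  have m3 : (s : G)⁻¹ * a * s ∈ L := by
    have h3 := mul_mem m1 m2
    have h4 : (s : G)⁻¹ * q1 * s * ((s : G)⁻¹ * q2 * s) = (s : G)⁻¹ * a * s := by rw [← h12]; group
    rwa [h4] at h3
  -- the commutator
  have h5 : (s : G)⁻¹ * a * s * a⁻¹ ∈ zpowers x := by
    have h6 := comm_mem H.hR H.ox H.xc s⁻¹ (⟨a, haR⟩ : R)
    have h7 := H.zp.1 h6
    have h8 : ((s⁻¹ * (⟨a, haR⟩ : R) * s⁻¹⁻¹ * (⟨a, haR⟩ : R)⁻¹ : R) : G) = (s : G)⁻¹ * a * s * a⁻¹ := by
      simp
    rwa [h8] at h7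
  have h6 : (s : G)⁻¹ * a * s * a⁻¹ ∈ L := by
    by_cases h7 : (s : G)⁻¹ * a * s * a⁻¹ = 1
    · rw [h7]; exact one_mem L
    · refine H.Lc _ (H.zx h5 h7) ?_
      obtain ⟨n, hn⟩ := mem_zpowers_iff.1 h5
      rw [← hn]
      exact ((show Commute a x from mem_centralizer_singleton_iff.1 (H.hRC haR)).zpow_right n).symm.eq
  apply H.La
  have h7 := mul_mem (inv_mem h6) m3
  have h8 : ((s : G)⁻¹ * a * s * a⁻¹)⁻¹ * ((s : G)⁻¹ * a * s) = a := by group
  rwa [h8] at h7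

/-- the other pairs -/
theorem In.dvd_T1 (haR : a ∈ R) : p ^ 2 ∣
    Nat.card {q : G × G // (IsConj x q.1 ∧ IsConj x q.2 ∧ q.1 * q.2 = a) ∧ ¬ q.1 * x = x * q.1} := by
  have ha0 : (⟨a, haR⟩ : R) ∉ zpowers (⟨x, H.mem_x⟩ : R) := fun h3 => H.not_z (IsConj.refl a) (H.zp.1 h3)
  set V := (dl H.hR H.ox H.xc (⟨a, haR⟩ : R)).ker with hV
  have hVc : Nat.card V = p ^ 2 := card_ker H.hR H.ox H.xc H.nab ha0
  have hVa : ∀ v : V, a * ((v : R) : G) = (v : R) * a := by
    intro v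
    exact congrArg Subtype.val ((dl_eq_one H.hR H.ox H.xc).1 (MonoidHom.mem_ker.1 v.2))
  have hVx : ∀ v : V, ((v : R) : G) * x = x * (v : R) := fun v => mem_centralizer_singleton_iff.1 (H.hRC (v : R).2)
  let T := {q : G × G // (IsConj x q.1 ∧ IsConj x q.2 ∧ q.1 * q.2 = a) ∧ ¬ q.1 * x = x * q.1}
  let act : MulAction V T :=
    { smul := fun v q => ⟨(((v : R) : G) * q.1.1 * ((v : R) : G)⁻¹, ((v : R) : G) * q.1.2 * ((v : R) : G)⁻¹), by
        refine ⟨⟨q.2.1.1.trans (isConj_iff.2 ⟨_, rfl⟩), q.2.1.2.1.trans (isConj_iff.2 ⟨_, rfl⟩), ?_⟩, ?_⟩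
        · show ((v : R) : G) * q.1.1 * ((v : R) : G)⁻¹ * (((v : R) : G) * q.1.2 * ((v : R) : G)⁻¹) = a
          calc _ = ((v : R) : G) * (q.1.1 * q.1.2) * ((v : R) : G)⁻¹ := by group
            _ = a := by rw [q.2.1.2.2, ← hVa v, mul_inv_cancel_right]
        · intro h1
          apply q.2.2
          have h2 : ((v : R) : G) * q.1.1 * ((v : R) : G)⁻¹ * x = x * (((v : R) : G) * q.1.1 * ((v : R) : G)⁻¹) := h1
          have h3 : ((v : R) : G)⁻¹ * x = x * ((v : R) : G)⁻¹ := by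
            rw [inv_mul_eq_iff_eq_mul, ← mul_assoc, hVx v]
            group
          have h4 : ((v : R) : G) * (q.1.1 * x) * ((v : R) : G)⁻¹ = ((v : R) : G) * (x * q.1.1) * ((v : R) : G)⁻¹ := by
            calc ((v : R) : G) * (q.1.1 * x) * ((v : R) : G)⁻¹ = ((v : R) : G) * q.1.1 * (x * ((v : R) : G)⁻¹) := by group
              _ = ((v : R) : G) * q.1.1 * (((v : R) : G)⁻¹ * x) := by rw [h3]
              _ = ((v : R) : G) * q.1.1 * ((v : R) : G)⁻¹ * x := by group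
              _ = x * (((v : R) : G) * q.1.1 * ((v : R) : G)⁻¹) := h2
              _ = x * ((v : R) : G) * q.1.1 * ((v : R) : G)⁻¹ := by group
              _ = ((v : R) : G) * x * q.1.1 * ((v : R) : G)⁻¹ := by rw [hVx v]
              _ = _ := by group
          exact mul_left_cancel (mul_right_cancel h4)⟩
      one_smul := by
        rintro ⟨⟨q1, q2⟩, h⟩
        refine Subtype.ext (Prod.ext ?_ ?_)
        · show (((1 : V) : R) : G) * q1 * (((1 : V) : R) : G)⁻¹ = q1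
          simp
        · show (((1 : V) : R) : G) * q2 * (((1 : V) : R) : G)⁻¹ = q2
          simp
      mul_smul := by
        rintro v w ⟨⟨q1, q2⟩, h⟩
        refine Subtype.ext (Prod.ext ?_ ?_)
        · show (((v * w : V) : R) : G) * q1 * (((v * w : V) : R) : G)⁻¹ =
            ((v : R) : G) * (((w : R) : G) * q1 * ((w : R) : G)⁻¹) * ((v : R) : G)⁻¹
          simp [mul_assoc]
        · show (((v * w : V) : R) : G) * q2 * (((v * w : V) : R) : G)⁻¹ =
            ((v : R) : G) * (((w : R) : G) * q2 * ((w : R) : G)⁻¹) * ((v : R) : G)⁻¹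
          simp [mul_assoc] }
  have hst : ∀ q : T, MulAction.stabilizer V q = ⊥ := by
    rintro ⟨⟨q1, q2⟩, ⟨h1, h2, h3⟩, h4⟩
    rw [eq_bot_iff]
    intro v hv
    rw [MulAction.mem_stabilizer_iff] at hv
    have h5 : ((v : R) : G) * q1 * ((v : R) : G)⁻¹ = q1 := congrArg Prod.fst (congrArg Subtype.val hv)
    have h6 : ((v : R) : G) * q1 = q1 * (v : R) := by rwa [mul_inv_eq_iff_eq_mul] at h5
    rw [Subgroup.mem_bot]
    by_contra hv1
    have hvo : ((v : R) : G) ≠ 1 := fun h7 => hv1 (Subtype.ext (Subtype.ext h7))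
    by_cases h7 : ((v : R) : G) ∈ zpowers x
    · -- `x` is a power of `v`
      apply h4
      have h8 : zpowers ((v : R) : G) = zpowers x := by
        refine eq_of_le_of_card_ge (zpowers_le.2 h7) ?_
        rw [Nat.card_zpowers, Nat.card_zpowers, H.hx, orderOf_eq_prime (H.ex _ (v : R).2) hvo]
      have h9 : x ∈ zpowers ((v : R) : G) := by rw [h8]; exact mem_zpowers x
      obtain ⟨n, hn⟩ := mem_zpowers_iff.1 h9
      have h10 := (show Commute q1 ((v : R) : G) from h6.symm).zpow_right n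
      rw [hn] at h10
      exact h10.eq
    · exact H.free haR (v := (v : R)) (Subtype.ext (hVa v)) h7 h1 h2 h3 h6
  have e := MulAction.selfEquivOrbitsQuotientProd hst
  show p ^ 2 ∣ Nat.card T
  rw [Nat.card_congr e, Nat.card_prod, hVc]
  exact dvd_mul_left _ _

/-- **The structure constant modulo `p ^ 2`.** -/
theorem In.card_T (haR : a ∈ R) (hk : k ≤ p + 1) : ∃ m : ℕ,
    Nat.card {q : G × G // IsConj x q.1 ∧ IsConj x q.2 ∧ q.1 * q.2 = a} = p * (k * (k - 1)) + p ^ 2 * m := by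
  classical
  have := Fintype.ofFinite G
  obtain ⟨m, hm⟩ := H.dvd_T1 haR
  refine ⟨m, ?_⟩
  rw [← hm, ← H.card_T0 haR hk, Nat.card_eq_fintype_card, Nat.card_eq_fintype_card, Nat.card_eq_fintype_card,
    Fintype.card_subtype, Fintype.card_subtype, Fintype.card_subtype,
    ← Finset.card_filter_add_card_filter_not (s := Finset.univ.filter fun q : G × G => IsConj x q.1 ∧ IsConj x q.2 ∧ q.1 * q.2 = a)
      (fun q => q.1 * x = x * q.1), Finset.filter_filter, Finset.filter_filter]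

/-! ### characters -/

omit H in
/-- rational values -/
theorem exists_int (hpG : p ∣ Nat.card G) {y : G} (hr : ∀ n : ℕ, ¬ p ∣ n → IsConj y (y ^ n)) (χ : IrrCharacter G) :
    ∃ t : ℤ, (χ : G → ℂ) y = t := by
  refine GaloisBasic.exists_int_of_rat (isIrr_isCharacter χ.2) y
    ((GaloisBasic.exists_rat_iff (isIrr_isCharacter χ.2) y).2 fun m hm => ?_)
  have hpm : ¬ p ∣ m := by
    intro hd
    have h1 := Nat.dvd_gcd hd hpG
    rw [hm] at h1
    exact hp.out.one_lt.ne' (Nat.dvd_one.1 h1)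
  obtain ⟨c, hc⟩ := isConj_iff.1 (hr m hpm)
  rw [← hc]
  exact isIrr_isClassFunction χ.2 y c

theorem In.sub_sum (K : Subgroup G) (hK : ∀ u ∈ K, u ≠ 1 → IsConj a u ∨ IsConj x u) (χ : IrrCharacter G) {f t s : ℤ}
    (hf : (χ : G → ℂ) 1 = f) (ht : (χ : G → ℂ) x = t) (hs : (χ : G → ℂ) a = s) :
    ∃ n : ℤ, f + (nA a K : ℤ) * s + ((Nat.card K : ℤ) - 1 - nA a K) * t = Nat.card K * n := by
  classical
  have := Fintype.ofFinite G
  have hcl : ∀ u v : G, IsConj u v → (χ : G → ℂ) v = (χ : G → ℂ) u := by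
    intro u v huv
    obtain ⟨c, rfl⟩ := isConj_iff.1 huv
    exact isIrr_isClassFunction χ.2 u c
  obtain ⟨n, hn⟩ := exists_sum (isIrr_isCharacter χ.2) K
  have ha1 : ¬ IsConj a 1 := by
    intro h1
    have := isConj_order h1
    rw [orderOf_one, H.ha] at this
    exact hp.out.one_lt.ne this
  have h1 := sum_three (Finset.univ.filter fun u : G => u ∈ K) (χ : G → ℂ) (IsConj a) (d := f) (xa := s) (z := t)
    (Finset.mem_filter.2 ⟨Finset.mem_univ _, one_mem K⟩) ha1 hf (fun u _ hu => by rw [hcl a u hu, hs]) (fun u hu hu1 hua => by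
      rcases hK u (Finset.mem_filter.1 hu).2 hu1 with h2 | h2
      · exact absurd h2 hua
      · rw [hcl x u h2, ht])
  have e1 : ((Finset.univ.filter fun u : G => u ∈ K).filter (IsConj a)).card = nA a K := by
    unfold nA
    rw [Finset.filter_filter, ← Fintype.card_subtype, ← Nat.card_eq_fintype_card]
    exact Nat.card_congr (Equiv.subtypeEquivRight fun u => and_comm)
  have e2 : (Finset.univ.filter fun u : G => u ∈ K).card = Nat.card K := by
    rw [← Fintype.card_subtype, ← Nat.card_eq_fintype_card]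
  have h1' : (Nat.card K : ℂ) * n = f + (nA a K : ℂ) * s + ((Nat.card K : ℂ) - 1 - (nA a K : ℂ)) * t := by
    rw [← hn, ← e1, ← e2]
    convert h1
  refine ⟨n, ?_⟩
  have h2 : ((f + (nA a K : ℤ) * s + ((Nat.card K : ℤ) - 1 - nA a K) * t : ℤ) : ℂ) = ((Nat.card K * n : ℤ) : ℂ) := by
    push_cast
    rw [h1']
  exact_mod_cast h2

theorem In.nA_a : nA a (zpowers a) = p - 1 := by
  classical
  unfold nA
  have h1 : Nat.card {u : G // IsConj a u ∧ u ∈ zpowers a} = Nat.card {u : zpowers a // u ≠ 1} := by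
    refine Nat.card_congr ⟨fun u => ⟨⟨u.1, u.2.2⟩, fun h => ?_⟩, fun u => ⟨u.1.1, ?_, u.1.2⟩, fun u => rfl, fun u => rfl⟩
    · have h2 : (u : G) = 1 := congrArg Subtype.val h
      have h3 := isConj_order u.2.1
      rw [h2, orderOf_one, H.ha] at h3
      exact hp.out.one_lt.ne h3
    · obtain ⟨n, hn⟩ := mem_powers_iff_mem_zpowers.2 u.1.2
      change a ^ n = (u.1 : G) at hn
      rw [← hn]
      refine H.hra n fun hd => u.2 (Subtype.ext ?_)
      rw [← hn]
      show a ^ n = 1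
      rw [← orderOf_dvd_iff_pow_eq_one, H.ha]
      exact hd
  have := Fintype.ofFinite (zpowers a)
  rw [h1, Nat.card_eq_fintype_card, Fintype.card_subtype_compl, Fintype.card_subtype_eq, ← Nat.card_eq_fintype_card,
    Nat.card_zpowers, H.ha]

/-- the congruences of the values -/
theorem In.values (haR : a ∈ R) (χ : IrrCharacter G) {f t s : ℤ}
    (hf : (χ : G → ℂ) 1 = f) (ht : (χ : G → ℂ) x = t) (hs : (χ : G → ℂ) a = s) :
    (p : ℤ) ^ 2 ∣ f - t ∧ (p : ℤ) ∣ s - t := by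
  classical
  have ha0 : (⟨a, haR⟩ : R) ∉ zpowers (⟨x, H.mem_x⟩ : R) := fun h3 => H.not_z (IsConj.refl a) (H.zp.1 h3)
  -- `⟨a⟩`
  obtain ⟨m, hm⟩ := H.sub_sum (zpowers a) (fun u hu hu1 => by
    left
    obtain ⟨n, rfl⟩ := mem_powers_iff_mem_zpowers.2 hu
    refine H.hra n fun hd => hu1 ?_
    show a ^ n = 1
    rw [← orderOf_dvd_iff_pow_eq_one, H.ha]
    exact hd) χ hf ht hs
  rw [H.nA_a, Nat.card_zpowers, H.ha, Nat.cast_sub hp.out.one_lt.le] at hm
  -- `⟨a, x⟩`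
  set W : Subgroup G := R ⊓ centralizer {a} with hW
  have hWm : ∀ u : G, u ∈ W ↔ ∃ h : u ∈ R, (⟨u, h⟩ : R) ∈ (dl H.hR H.ox H.xc (⟨a, haR⟩ : R)).ker := by
    intro u
    rw [hW, Subgroup.mem_inf, mem_centralizer_singleton_iff]
    constructor
    · rintro ⟨h1, h2⟩
      exact ⟨h1, MonoidHom.mem_ker.2 ((dl_eq_one H.hR H.ox H.xc).2 (Subtype.ext h2.symm))⟩
    · rintro ⟨h1, h2⟩
      exact ⟨h1, (congrArg Subtype.val ((dl_eq_one H.hR H.ox H.xc).1 (MonoidHom.mem_ker.1 h2))).symm⟩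
  have hWc : Nat.card W = p ^ 2 := by
    rw [← card_ker H.hR H.ox H.xc H.nab ha0]
    refine Nat.card_congr ⟨fun u => ⟨⟨u.1, u.2.1⟩, ((hWm u.1).1 u.2).2⟩, fun u => ⟨(u.1 : G), (hWm u.1).2 ⟨u.1.2, u.2⟩⟩,
      fun u => rfl, fun u => rfl⟩
  have hWz : ∀ u ∈ W, u ∉ zpowers x → IsConj a u := by
    intro u hu hux
    obtain ⟨h1, h2⟩ := (hWm u).1 hu
    exact H.line (u := ⟨a, haR⟩) (w := ⟨u, h1⟩) (H.not_z (IsConj.refl a)) hux
      ((dl_eq_one H.hR H.ox H.xc).1 (MonoidHom.mem_ker.1 h2)) H.hra (IsConj.refl a)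
  have hWn : nA a W = p ^ 2 - p := by
    have := Fintype.ofFinite R
    rw [← card_comm H.hR H.ox H.xc H.nab ha0]
    unfold nA
    rw [← Fintype.card_subtype, ← Nat.card_eq_fintype_card]
    refine Nat.card_congr ⟨fun u => ⟨⟨u.1, u.2.2.1⟩, fun h1 => H.not_z u.2.1 (H.zp.1 h1),
      (dl_eq_one H.hR H.ox H.xc).1 (MonoidHom.mem_ker.1 ((hWm u.1).1 u.2.2).2)⟩,
      fun u => ⟨(u.1 : G), ?_, ?_⟩, fun u => rfl, fun u => rfl⟩
    · exact H.line (u := ⟨a, haR⟩) (w := u.1) (H.not_z (IsConj.refl a)) (fun h1 => u.2.1 (H.zp.2 h1)) u.2.2 H.hra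
        (IsConj.refl a)
    · exact (hWm _).2 ⟨u.1.2, MonoidHom.mem_ker.2 ((dl_eq_one H.hR H.ox H.xc).2 u.2.2)⟩
  obtain ⟨n, hn⟩ := H.sub_sum W (fun u hu hu1 => by
    by_cases h1 : u ∈ zpowers x
    · exact Or.inr (H.zx h1 hu1)
    · exact Or.inl (hWz u hu h1)) χ hf ht hs
  have hpp : p ≤ p ^ 2 := by nlinarith [hp.out.pos]
  rw [hWn, hWc, Nat.cast_sub hpp] at hn
  push_cast at hm hn
  refine dvd_of_sums hp.out (m := m) (n := n) ?_ ?_
  · linear_combination hm
  · linear_combination hn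

/-- outside of the principal block -/
theorem In.vanish {M : Ideal AlgInt} (hM : IsPModular p M) {χ : IrrCharacter G} (hχ : χ ∉ principalBlock M G) :
    (χ : G → ℂ) x = 0 := by
  have hC : ∀ ψ : IrrCharacter (centralizer ({x} : Set G)), ψ ∈ principalBlock M (centralizer ({x} : Set G)) := by
    intro ψ
    let N : Subgroup (centralizer ({x} : Set G)) := R.subgroupOf (centralizer ({x} : Set G))
    have hN : N.Normal := ⟨fun n hn c => H.hRx c.1 c.2 n.1 hn⟩
    have hNp : IsPGroup p N := by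
      have h1 : IsPGroup p R := IsPGroup.of_card H.hR
      exact h1.comap_subtype
    refine UniqueBlock.sameBlock_of_centralizer_le hM N hNp ?_ ⟨fun _ => 1, isIrrCharacter_one⟩ ψ
    intro c hc
    refine H.cR c.1 fun r hr => ?_
    have h1 := mem_centralizer_iff.1 hc ⟨r, H.hRC hr⟩ hr
    exact (congrArg Subtype.val h1).symm
  have h1 := SmallSimple.S1000.OneBlock.eq_zero_of_oneBlock hM (u := x) ⟨1, by rw [pow_one, H.hx]⟩ hC hχ (y := 1)
    (one_mem _) (by rw [orderOf_one]; exact fun h => hp.out.one_lt.ne' (Nat.dvd_one.1 h))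
  rwa [mul_one] at h1

/-- outside of the principal block -/
theorem In.values' (haR : a ∈ R) (hk : k ≤ p + 1) {M : Ideal AlgInt} (hM : IsPModular p M) {χ : IrrCharacter G}
    (hχ : χ ∉ principalBlock M G) {f s : ℤ} (hf : (χ : G → ℂ) 1 = f) (hs : (χ : G → ℂ) a = s) :
    ∃ β α γ : ℤ, f = p ^ 2 * β ∧ s = p * α ∧ β = (-((p + 1 - k) * (p - 1))) * α + p * γ := by
  have hp0 : (p : ℤ) ≠ 0 := by exact_mod_cast hp.out.ne_zero
  have ht : (χ : G → ℂ) x = ((0 : ℤ) : ℂ) := by rw [H.vanish hM hχ]; simp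
  obtain ⟨⟨β, hβ⟩, ⟨α, hα⟩⟩ := H.values haR χ hf ht hs
  rw [sub_zero] at hβ hα
  obtain ⟨n, hn⟩ := H.sub_sum R (fun u hu hu1 => H.cl u hu (orderOf_eq_prime (H.ex u hu) hu1)) χ hf ht hs
  have hpp : p ≤ p ^ 2 := by nlinarith [hp.out.pos]
  rw [H.ca, H.hR, mul_zero, add_zero] at hn
  push_cast [Nat.cast_sub hpp, Nat.cast_sub hk] at hn
  refine ⟨β, α, n, hβ, hα, ?_⟩
  rw [hβ, hα] at hn
  have h1 : (p : ℤ) ^ 2 * β = p ^ 2 * (-((p + 1 - k) * (p - 1)) * α + p * n) := by linear_combination hn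
  exact mul_left_cancel₀ (pow_ne_zero 2 hp0) h1

/-- **The congruence.** -/
theorem In.congr (haR : a ∈ R) (hk : k ≤ p + 1) {M : Ideal AlgInt} (hM : IsPModular p M)
    (hno : ∀ χ : IrrCharacter G, χ ∈ principalBlock M G → ¬ p ∣ charDegree (χ : G → ℂ)) :
    (p : ℤ) ^ 2 ∣ (h : ℤ) ^ 2 * ((p * (k * (k - 1)) : ℕ) : ℤ) - g * (g + h) := by
  classical
  have hfin : Finite (IrrCharacter G) := Core.finite_irr
  have := Fintype.ofFinite (IrrCharacter G)
  have := Fintype.ofFinite G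
  have hpG : p ∣ Nat.card G := by rw [H.cG]; exact dvd_mul_of_dvd_left (dvd_pow_self p (by norm_num)) g
  have hax : ¬ IsConj a x := H.hax
  choose t ht using fun χ : IrrCharacter G => exists_int hpG H.hrx χ
  choose s hs using fun χ : IrrCharacter G => exists_int hpG H.hra χ
  have hf : ∀ χ : IrrCharacter G, (χ : G → ℂ) 1 = ((charDegree (χ : G → ℂ) : ℤ) : ℂ) := fun χ => by
    rw [irr_one_eq_charDegree χ.2]; push_cast; rfl
  set f : IrrCharacter G → ℤ := fun χ => (charDegree (χ : G → ℂ) : ℤ) with hfd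
  have hcj : ∀ n : ℤ, conj ((n : ℤ) : ℂ) = n := fun n => by
    rw [← Complex.ofReal_intCast, Complex.conj_ofReal]
  set B : Finset (IrrCharacter G) := Finset.univ.filter fun χ => χ ∈ principalBlock M G with hB
  obtain ⟨m, hm⟩ := H.card_T haR hk
  -- orthogonality
  have orth : ∀ u v : G, ∀ fu fv : IrrCharacter G → ℤ, (∀ χ : IrrCharacter G, (χ : G → ℂ) u = fu χ) →
      (∀ χ : IrrCharacter G, (χ : G → ℂ) v = fv χ) →
      ((∑ χ, fu χ * fv χ : ℤ) : ℂ) = if IsConj u v then (Nat.card (Subgroup.centralizer ({v} : Set G)) : ℂ) else 0 := by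
    intro u v fu fv hu hv
    rw [← H686.CharKit.col_orth u v]
    push_cast
    refine Finset.sum_congr rfl fun χ _ => ?_
    rw [hu χ, hv χ, hcj]
  have n1x : ¬ IsConj 1 x := by
    intro h1
    have := isConj_order h1
    rw [orderOf_one, H.hx] at this
    exact hp.out.one_lt.ne' this
  have n1a : ¬ IsConj 1 a := by
    intro h1
    have := isConj_order h1
    rw [orderOf_one, H.ha] at this
    exact hp.out.one_lt.ne' this
  have S1 : ∑ χ, f χ * t χ = 0 := by
    have h1 := orth 1 x f t hf ht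
    rw [if_neg n1x] at h1
    exact_mod_cast h1
  have S2 : ∑ χ, f χ * s χ = 0 := by
    have h1 := orth 1 a f s hf hs
    rw [if_neg n1a] at h1
    exact_mod_cast h1
  have S3 : ∑ χ, t χ * s χ = 0 := by
    have h1 := orth x a t s ht hs
    rw [if_neg fun h2 => hax h2.symm] at h1
    exact_mod_cast h1
  have S4 : ∑ χ, t χ * t χ = p ^ 3 * h := by
    have h1 := orth x x t t ht ht
    rw [if_pos (IsConj.refl x), H.cx] at h1
    exact_mod_cast h1
  have S5 : ∑ χ, f χ * f χ = p ^ 3 * g := by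
    have h1 := orth 1 1 f f hf hf
    have h2 : Nat.card (centralizer ({1} : Set G)) = p ^ 3 * g := by
      rw [← H.cG]
      have h3 : centralizer ({1} : Set G) = ⊤ := by
        rw [eq_top_iff]
        intro y _
        rw [mem_centralizer_singleton_iff, mul_one, one_mul]
      rw [h3]
      exact Nat.card_congr topEquiv.toEquiv
    rw [if_pos (IsConj.refl 1), h2] at h1
    exact_mod_cast h1
  have S2B : ∑ χ ∈ B, f χ * s χ = 0 := by
    have h1 := Orthogonality.weak_block_orthogonality hM (principalBlock M G)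
      (Osima.memLocalRing_blockCoeff hM PrincipalSection.isPBlock_principalBlock) (x := 1) (y := a)
      (by rw [orderOf_one]; exact fun h => hp.out.one_lt.ne' (Nat.dvd_one.1 h)) (by rw [H.ha])
    rw [Orthogonality.finsum_mem_eq_sum_filter] at h1
    have h2 : ((∑ χ ∈ B, f χ * s χ : ℤ) : ℂ) = 0 := by
      rw [← h1]
      push_cast
      refine Finset.sum_congr rfl fun χ _ => ?_
      rw [hf χ, hs χ, hcj]
    exact_mod_cast h2
  have SN : ((p : ℂ) ^ 3 * h) ^ 2 * ((p * (k * (k - 1)) + p ^ 2 * m : ℕ) : ℂ) =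
      (p : ℂ) ^ 3 * g * ∑ χ, ((t χ : ℂ) * t χ * s χ / f χ) := by
    have h1 := ClassMul.card_conj_mul_conj x x a
    rw [ClassMul.card_conj_mul_conj_eq, hm, H.cx, H.cG] at h1
    have h2 : ∑ χ : IrrCharacter G, (χ : G → ℂ) x * (χ : G → ℂ) x * conj ((χ : G → ℂ) a) / (χ : G → ℂ) 1 =
        ∑ χ, ((t χ : ℂ) * t χ * s χ / f χ) := by
      refine Finset.sum_congr rfl fun χ _ => ?_
      rw [ht χ, hs χ, hf χ, hcj]
    rw [h2] at h1
    push_cast at h1 ⊢
    rw [← h1]
    ring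
  have key := main B f t s hp.out g h (p * (k * (k - 1)) + p ^ 2 * m) (-((p + 1 - k) * (p - 1)))
    (fun χ => by
      have h1 := irr_one_ne_zero χ.2
      rw [hf χ] at h1
      intro h2
      exact h1 (by rw [show (charDegree (χ : G → ℂ) : ℤ) = 0 from h2]; simp))
    (fun χ hχ hd => hno χ (Finset.mem_filter.1 hχ).2 (Int.natCast_dvd_natCast.1 hd))
    (fun χ _ => (H.values haR χ (hf χ) (ht χ) (hs χ)).1) (fun χ _ => (H.values haR χ (hf χ) (ht χ) (hs χ)).2)
    (fun χ hχ => by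
      have h1 := H.vanish hM (χ := χ) fun h2 => hχ (Finset.mem_filter.2 ⟨Finset.mem_univ _, h2⟩)
      rw [ht χ] at h1
      exact_mod_cast h1)
    (fun χ hχ => H.values' haR hk hM (fun h2 => hχ (Finset.mem_filter.2 ⟨Finset.mem_univ _, h2⟩)) (hf χ) (hs χ))
    S1 S2 S2B S3 S4 S5 SN
  have h1 : (h : ℤ) ^ 2 * ((p * (k * (k - 1)) : ℕ) : ℤ) - g * (g + h) =
      ((h : ℤ) ^ 2 * ((p * (k * (k - 1)) + p ^ 2 * m : ℕ) : ℤ) - g * (g + h)) - p ^ 2 * (h ^ 2 * m) := by
    push_cast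
    ring
  rw [h1]
  exact dvd_sub key (dvd_mul_right _ _)

/-- **The mixed moment test.** -/
theorem In.exists_dvd (hk : k ≤ p + 1)
    (hne : ¬ (p : ℤ) ^ 2 ∣ (h : ℤ) ^ 2 * ((p * (k * (k - 1)) : ℕ) : ℤ) - g * (g + h)) {M : Ideal AlgInt}
    (hM : IsPModular p M) : ∃ χ : IrrCharacter G, χ ∈ principalBlock M G ∧ p ∣ charDegree (χ : G → ℂ) := by
  by_contra hno
  push Not at hno
  -- a conjugate of `a` in `R`
  have h1 : IsPGroup p (zpowers a) := IsPGroup.of_card (n := 1) (by rw [Nat.card_zpowers, H.ha, pow_one])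
  obtain ⟨S, hS⟩ := h1.exists_le_sylow
  obtain ⟨c, hc⟩ := H.toHyp.exists_conj S
  have h2 : a ∈ (S : Subgroup G) := hS (mem_zpowers a)
  rw [hc] at h2
  obtain ⟨w, hw, hwa⟩ := h2
  have h3 : c * w * c⁻¹ = a := hwa
  have h4 : c⁻¹ * a * c⁻¹⁻¹ = w := by rw [← h3]; group
  have H' := H.conj_a' c⁻¹
  rw [h4] at H'
  exact hne (H'.congr hw hk hM hno)

end main

end Cfsg.Agent.H994.HT
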