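import Mathlib

/-!
# The mixed moment test: arithmetic (helper994, S4933)
-/

set_option autoImplicit false

namespace Cfsg.Agent.H994.HT

open Finset

/-- the third order relation -/
theorem sum_eq {ι : Type*} [DecidableEq ι] (s : Finset ι) (f t v b c : ι → ℤ) (p C : ℤ) (hf : ∀ i ∈ s, f i ≠ 0)
    (ht : ∀ i ∈ s, f i - t i = p ^ 2 * b i) (hv : ∀ i ∈ s, v i - t i = p * c i)
    (h1 : ∑ i ∈ s, f i * t i = 0) (h2 : ∑ i ∈ s, f i * v i = 0) (h3 : ∑ i ∈ s, t i * v i = 0)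
    (h4 : ∑ i ∈ s, t i * t i = C) :
    ∃ Z : ℤ, ((∏ i ∈ s, f i : ℤ) : ℂ) * ∑ i ∈ s, ((t i : ℂ) * t i * v i / f i) =
      ((∏ i ∈ s, f i : ℤ) : ℂ) * (((∑ i ∈ s, f i * f i : ℤ) : ℂ) + C) + (p : ℂ) ^ 5 * Z := by
  refine ⟨∑ i ∈ s, (∏ j ∈ s.erase i, f j) * (b i ^ 2 * c i - p * b i ^ 3), ?_⟩
  set F : ℤ := ∏ i ∈ s, f i with hF
  -- termwise
  have e1 : ∀ i ∈ s, (F : ℂ) * ((t i : ℂ) * t i * v i / f i) =
      (F : ℂ) * ((f i * f i - 2 * (f i * t i) + t i * t i - f i * v i + 2 * (t i * v i) : ℤ) : ℂ) +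
      (p : ℂ) ^ 5 * (((∏ j ∈ s.erase i, f j) * (b i ^ 2 * c i - p * b i ^ 3) : ℤ) : ℂ) := by
    intro i hi
    have hfi : (f i : ℂ) ≠ 0 := by exact_mod_cast hf i hi
    have hFi : (F : ℂ) = (f i : ℂ) * ((∏ j ∈ s.erase i, f j : ℤ) : ℂ) := by
      rw [hF, ← Finset.mul_prod_erase s f hi]
      push_cast
      rfl
    have ht' : (t i : ℂ) = f i - p ^ 2 * b i := by
      have := ht i hi
      have h : t i = f i - p ^ 2 * b i := by linarith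
      rw [h]; push_cast; ring
    have hv' : (v i : ℂ) = f i - p ^ 2 * b i + p * c i := by
      have h5 := ht i hi
      have h6 := hv i hi
      have h : v i = f i - p ^ 2 * b i + p * c i := by linarith
      rw [h]; push_cast; ring
    rw [hFi]
    push_cast
    rw [hv', ht']
    field_simp
    ring
  rw [Finset.mul_sum, Finset.sum_congr rfl e1, Finset.sum_add_distrib, ← Finset.mul_sum, ← Finset.mul_sum]
  congr 1
  · congr 1
    have e2 : ∑ i ∈ s, (f i * f i - 2 * (f i * t i) + t i * t i - f i * v i + 2 * (t i * v i)) =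
        (∑ i ∈ s, f i * f i) + C := by
      simp only [Finset.sum_add_distrib, Finset.sum_sub_distrib, ← Finset.mul_sum]
      rw [h1, h2, h3, h4]
      ring
    rw [← Int.cast_sum, e2]
    push_cast
    rfl
  · push_cast
    rfl

/-- **The congruence.** -/
theorem main {ι : Type*} [Fintype ι] [DecidableEq ι] (B : Finset ι) (f t v : ι → ℤ) {p : ℕ} (hp : p.Prime) (g h N : ℕ)
    (κ : ℤ) (hf0 : ∀ i, f i ≠ 0) (hfB : ∀ i ∈ B, ¬ (p : ℤ) ∣ f i) (ht : ∀ i ∈ B, (p : ℤ) ^ 2 ∣ f i - t i)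
    (hv : ∀ i ∈ B, (p : ℤ) ∣ v i - t i) (ht0 : ∀ i, i ∉ B → t i = 0)
    (hβ : ∀ i, i ∉ B → ∃ β α γ : ℤ, f i = p ^ 2 * β ∧ v i = p * α ∧ β = κ * α + p * γ)
    (S1 : ∑ i, f i * t i = 0) (S2 : ∑ i, f i * v i = 0) (S2B : ∑ i ∈ B, f i * v i = 0) (S3 : ∑ i, t i * v i = 0)
    (S4 : ∑ i, t i * t i = p ^ 3 * h) (S5 : ∑ i, f i * f i = p ^ 3 * g)
    (SN : ((p : ℂ) ^ 3 * h) ^ 2 * N = (p : ℂ) ^ 3 * g * ∑ i, ((t i : ℂ) * t i * v i / f i)) :
    (p : ℤ) ^ 2 ∣ (h : ℤ) ^ 2 * N - g * (g + h) := by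
  classical
  have hp0 : (p : ℤ) ≠ 0 := by exact_mod_cast hp.ne_zero
  have hpc : (p : ℂ) ≠ 0 := by exact_mod_cast hp.ne_zero
  choose! b hb using ht
  choose! c hc using hv
  -- restriction to `B`
  have res : ∀ w : ι → ℤ, (∀ i, i ∉ B → w i = 0) → ∑ i ∈ B, w i = ∑ i, w i := fun w hw =>
    Finset.sum_subset (Finset.subset_univ B) fun i _ hi => hw i hi
  have h1 : ∑ i ∈ B, f i * t i = 0 := by rw [res _ fun i hi => by rw [ht0 i hi, mul_zero], S1]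
  have h3 : ∑ i ∈ B, t i * v i = 0 := by rw [res _ fun i hi => by rw [ht0 i hi, zero_mul], S3]
  have h4 : ∑ i ∈ B, t i * t i = p ^ 3 * h := by rw [res _ fun i hi => by rw [ht0 i hi, zero_mul], S4]
  obtain ⟨Z, hZ⟩ := sum_eq B f t v b c p (p ^ 3 * h) (fun i _ => hf0 i) hb hc h1 S2B h3 h4
  -- outside of `B`
  choose! β α γ hβ1 hβ2 hβ3 using hβ
  have h5 : ∑ i ∈ Bᶜ, f i * v i = 0 := by
    have := Finset.sum_add_sum_compl B fun i => f i * v i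
    rw [S2B, S2, zero_add] at this
    exact this
  have h6 : ∑ i ∈ Bᶜ, β i * α i = 0 := by
    have e : ∑ i ∈ Bᶜ, f i * v i = p ^ 3 * ∑ i ∈ Bᶜ, β i * α i := by
      rw [Finset.mul_sum]
      refine Finset.sum_congr rfl fun i hi => ?_
      have hi' : i ∉ B := Finset.mem_compl.1 hi
      rw [hβ1 i hi', hβ2 i hi']
      ring
    rw [e] at h5
    exact (mul_eq_zero.1 h5).resolve_left (pow_ne_zero 3 hp0)
  have h7 : ∑ i ∈ Bᶜ, f i * f i = p ^ 5 * ∑ i ∈ Bᶜ, β i * γ i := by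
    have e : ∑ i ∈ Bᶜ, f i * f i = p ^ 4 * (κ * ∑ i ∈ Bᶜ, β i * α i) + p ^ 5 * ∑ i ∈ Bᶜ, β i * γ i := by
      rw [Finset.mul_sum, Finset.mul_sum, Finset.mul_sum, ← Finset.sum_add_distrib]
      refine Finset.sum_congr rfl fun i hi => ?_
      have hi' : i ∉ B := Finset.mem_compl.1 hi
      rw [hβ1 i hi']
      have := hβ3 i hi'
      calc (p : ℤ) ^ 2 * β i * (p ^ 2 * β i) = p ^ 4 * (β i * β i) := by ring
        _ = p ^ 4 * (β i * (κ * α i + p * γ i)) := by rw [← this]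
        _ = _ := by ring
    rw [e, h6]
    ring
  have h8 : ∑ i ∈ B, f i * f i = p ^ 3 * g - p ^ 5 * ∑ i ∈ Bᶜ, β i * γ i := by
    have := Finset.sum_add_sum_compl B fun i => f i * f i
    rw [S5, h7] at this
    linarith
  set Y : ℤ := ∑ i ∈ Bᶜ, β i * γ i with hY
  set F : ℤ := ∏ i ∈ B, f i with hF
  have h9 : ∑ i, ((t i : ℂ) * t i * v i / f i) = ∑ i ∈ B, ((t i : ℂ) * t i * v i / f i) := by
    symm
    refine Finset.sum_subset (Finset.subset_univ B) fun i _ hi => ?_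
    rw [ht0 i hi]
    simp
  rw [h9] at SN
  rw [h8] at hZ
  -- the equation in the integers
  have h10 : F * (p ^ 3 * h ^ 2 * N) = g * (F * (p ^ 3 * g - p ^ 5 * Y + p ^ 3 * h) + p ^ 5 * Z) := by
    have e : (p : ℂ) ^ 3 * ((F * (p ^ 3 * h ^ 2 * N) : ℤ) : ℂ) =
        (p : ℂ) ^ 3 * ((g * (F * (p ^ 3 * g - p ^ 5 * Y + p ^ 3 * h) + p ^ 5 * Z) : ℤ) : ℂ) := by
      calc (p : ℂ) ^ 3 * ((F * (p ^ 3 * h ^ 2 * N) : ℤ) : ℂ) = (F : ℂ) * (((p : ℂ) ^ 3 * h) ^ 2 * N) := by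
            push_cast; ring
        _ = (p : ℂ) ^ 3 * (g * ((F : ℂ) * ∑ i ∈ B, ((t i : ℂ) * t i * v i / f i))) := by rw [SN]; ring
        _ = _ := by
            rw [hZ]; push_cast; ring
    exact_mod_cast mul_left_cancel₀ (pow_ne_zero 3 hpc) e
  have h11 : F * (h ^ 2 * N - g * (g + h)) = p ^ 2 * (g * (Z - F * Y)) := by
    have e : (p : ℤ) ^ 3 * (F * (h ^ 2 * N - g * (g + h))) = p ^ 3 * (p ^ 2 * (g * (Z - F * Y))) := by
      linear_combination h10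
    exact mul_left_cancel₀ (pow_ne_zero 3 hp0) e
  have hpp : Prime (p : ℤ) := Nat.prime_iff_prime_int.1 hp
  have h12 : ¬ (p : ℤ) ∣ F := by
    rw [hF, hpp.dvd_finsetProd_iff]
    rintro ⟨i, hi, hd⟩
    exact hfB i hi hd
  have h13 : IsCoprime ((p : ℤ) ^ 2) F := ((Prime.coprime_iff_not_dvd hpp).2 h12).pow_left
  exact h13.dvd_of_dvd_mul_left ⟨_, h11⟩

/-- the two congruences from the subgroup of order `p ^ 2` -/
theorem dvd_of_sums {p : ℕ} (hp : p.Prime) {f t s m n : ℤ} (h1 : f + (p - 1) * s = p * m)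
    (h2 : f + (p - 1) * t + (p ^ 2 - p) * s = p ^ 2 * n) : (p : ℤ) ^ 2 ∣ f - t ∧ (p : ℤ) ∣ s - t := by
  have hp0 : (p : ℤ) ≠ 0 := by exact_mod_cast hp.ne_zero
  have h3 : (p : ℤ) ^ 2 ∣ (p - 1) * (f - t) := ⟨m - n, by linear_combination (p : ℤ) * h1 - h2⟩
  have h4 : IsCoprime ((p : ℤ) ^ 2) (p - 1) := by
    apply IsCoprime.pow_left
    exact ⟨1, -1, by ring⟩
  have h5 := h4.dvd_of_dvd_mul_left h3
  refine ⟨h5, ?_⟩
  obtain ⟨w, hw⟩ := h5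
  have h6 : (p : ℤ) * (p * (w - n + s)) = p * (s - t) := by
    linear_combination (-1 : ℤ) * hw + h2
  exact ⟨w - n + s, (mul_left_cancel₀ hp0 h6).symm⟩

end Cfsg.Agent.H994.HT
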